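import Cfsg.Agent.H13.Co3.Def

/-!
# S1920, case B: counting squares in `N0` (helper731)

* `card_sq_one`, `card_sq_z` : exactly 32 elements of `N0` have square `1`, exactly 32 have square `z`;
* `no_hom_one` : no nontrivial hom `e : N0 → {± 1}` with `e n = -1 → n² = z`;
* `no_hom_two` : no nontrivial hom `l : N0 → {± 1}` with `l n = -1 → n² = 1`;
* `conj_mul_z` : a noncentral element `n` of `N0` is conjugate to `n z` under `N0`; `not_comm`, `exists_comm_ne`.
-/

set_option autoImplicit false

open Subgroup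

namespace Cfsg.Agent.H731.C3

/-- a permutation exchanging a property with its negation: the property holds for one half -/
theorem half {α : Type*} [Finite α] (p : α → Prop) (σ : Equiv.Perm α) (h : ∀ x, p (σ x) ↔ ¬ p x) :
    2 * Nat.card {x // p x} = Nat.card α := by
  classical
  have h1 : Nat.card {x // ¬ p x} = Nat.card {x // p x} :=
    Nat.card_congr (σ.subtypeEquiv fun a => (h a).symm)
  have h2 : Nat.card ({x // p x} ⊕ {x // ¬ p x}) = Nat.card α := Nat.card_congr (Equiv.sumCompl p)
  rw [Nat.card_sum, h1] at h2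
  omega

variable {G : Type*} [Group G] {P N0 : Subgroup G} {z s : G} {ψ : ↥(normalizer (P : Set G)) →* Equiv.Perm (Fin 6)}

theorem finite_N0 (C : H13.Co3.CB P N0 z s ψ) : Finite ↥N0 :=
  Nat.finite_of_card_ne_zero (by rw [C.card]; norm_num)

theorem z_mem (C : H13.Co3.CB P N0 z s ψ) : z ∈ N0 := C.PN C.zP

/-- multiplication by `s` exchanges the two kinds of elements -/
theorem sq_mul_s (C : H13.Co3.CB P N0 z s ψ) {n : G} (hn : n ∈ N0) : (n * s) * (n * s) = (n * n) * z := by
  have h := C.s_cen n hn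
  calc (n * s) * (n * s) = n * (s * n) * s := by group
    _ = n * (n * s) * s := by rw [h]
    _ = (n * n) * (s * s) := by group
    _ = (n * n) * z := by rw [C.s_sq]

/-- 32 elements of square `1` -/
theorem card_sq_one (C : H13.Co3.CB P N0 z s ψ) : Nat.card {n : ↥N0 // (n : G) * n = 1} = 32 := by
  have hf := finite_N0 C
  have h := half (fun n : ↥N0 => (n : G) * n = 1) (Equiv.mulRight ⟨s, C.sN⟩) (by
    intro n
    have e : ((Equiv.mulRight (⟨s, C.sN⟩ : ↥N0)) n : G) = (n : G) * s := rfl
    rw [e, sq_mul_s C n.2]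
    rcases C.sq n n.2 with h | h
    · rw [h, one_mul]
      exact ⟨fun h1 => absurd h1 C.z_ne, fun h1 => absurd rfl h1⟩
    · rw [h]
      exact ⟨fun _ h2 => C.z_ne h2, fun _ => C.z_sq⟩)
  rw [C.card] at h
  omega

/-- 32 elements of square `z` -/
theorem card_sq_z (C : H13.Co3.CB P N0 z s ψ) : Nat.card {n : ↥N0 // (n : G) * n = z} = 32 := by
  have hf := finite_N0 C
  have h := half (fun n : ↥N0 => (n : G) * n = z) (Equiv.mulRight ⟨s, C.sN⟩) (by
    intro n
    have e : ((Equiv.mulRight (⟨s, C.sN⟩ : ↥N0)) n : G) = (n : G) * s := rfl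
    rw [e, sq_mul_s C n.2]
    rcases C.sq n n.2 with h | h
    · rw [h, one_mul]
      exact ⟨fun _ h2 => C.z_ne h2.symm, fun _ => rfl⟩
    · rw [h, C.z_sq]
      exact ⟨fun h1 => absurd h1.symm C.z_ne, fun h1 => absurd rfl h1⟩)
  rw [C.card] at h
  omega

/-- `N0` is not abelian -/
theorem not_comm (C : H13.Co3.CB P N0 z s ψ) : ∃ n ∈ N0, ∃ m ∈ N0, n * m ≠ m * n := by
  by_contra hc
  push Not at hc
  have h1 : N0 ≤ zpowers s := fun n hn => C.cen n hn fun m hm => hc n hn m hm
  have h4 : s ^ 4 = 1 := by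
    rw [show (4 : ℕ) = 2 + 2 by norm_num, pow_add, pow_two, C.s_sq, C.z_sq]
  have h2 : Nat.card ↥(zpowers s) ∣ 4 := by
    rw [Nat.card_zpowers]; exact orderOf_dvd_of_pow_eq_one h4
  have hf : Finite ↥(zpowers s) :=
    Nat.finite_of_card_ne_zero (fun h0 => by rw [h0] at h2; exact absurd h2 (by norm_num))
  have h3 := Subgroup.card_le_of_le h1
  rw [C.card] at h3
  have h5 := Nat.le_of_dvd (by norm_num) h2
  omega

/-- **no hom `e` with `e n = -1 → n² = z`** -/
theorem no_hom_one (C : H13.Co3.CB P N0 z s ψ) (e : ↥N0 →* ℤˣ) (he : e ≠ 1)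
    (h : ∀ n : ↥N0, e n = -1 → (n : G) * n = z) : False := by
  classical
  have hf := finite_N0 C
  obtain ⟨m, hm⟩ : ∃ m, e m = -1 := by
    by_contra hc
    push Not at hc
    apply he
    ext n
    rcases Int.units_eq_one_or (e n) with h1 | h1
    · rw [h1]; rfl
    · exact absurd h1 (hc n)
  have h1 : 2 * Nat.card {n : ↥N0 // e n = -1} = 64 := by
    rw [← C.card]
    refine half _ (Equiv.mulRight m) fun n => ?_
    have e1 : e ((Equiv.mulRight m) n) = e n * e m := map_mul e n m
    rw [e1, hm]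
    rcases Int.units_eq_one_or (e n) with h1 | h1
    · rw [h1]; decide
    · rw [h1]; decide
  -- the two sets agree
  have h2 : ∀ n : ↥N0, (n : G) * n = z → e n = -1 := by
    have h3 := card_sq_z C
    let f : {n : ↥N0 // e n = -1} → {n : ↥N0 // (n : G) * n = z} := fun n => ⟨n.1, h n.1 n.2⟩
    have hfi : Function.Injective f := fun a b hab => by
      have := congrArg (fun x => x.1) hab
      exact Subtype.ext this
    have hfb : Function.Bijective f := (Nat.bijective_iff_injective_and_card f).2 ⟨hfi, by omega⟩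
    intro n hn
    obtain ⟨a, ha⟩ := hfb.2 ⟨n, hn⟩
    have : a.1 = n := congrArg (fun x => x.1) ha
    rw [← this]
    exact a.2
  obtain ⟨n, hn, k, hk, hnk⟩ := not_comm C
  apply hnk
  have key : ∀ (x : ↥N0), (x : G) * x = if e x = -1 then z else 1 := by
    intro x
    split_ifs with hx
    · exact h x hx
    · rcases C.sq x x.2 with h5 | h5
      · exact h5
      · exact absurd (h2 x h5) hx
  have k1 := key ⟨n, hn⟩
  have k2 := key ⟨k, hk⟩
  have k3 := key (⟨n, hn⟩ * ⟨k, hk⟩)
  rw [map_mul] at k3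
  have hz1 : z * z = 1 := C.z_sq
  have e3 : (((⟨n, hn⟩ : ↥N0) * ⟨k, hk⟩ : ↥N0) : G) = n * k := rfl
  rw [e3] at k3
  have h6 : n * k * (n * k) = n * n * (k * k) := by
    rw [k3, show n * n = _ from k1, show k * k = _ from k2]
    rcases Int.units_eq_one_or (e ⟨n, hn⟩) with h1 | h1 <;> rcases Int.units_eq_one_or (e ⟨k, hk⟩) with h2 | h2 <;>
      rw [h1, h2] <;> simp [hz1]
  have h7 : n * (k * n) * k = n * (n * k) * k := by
    calc n * (k * n) * k = n * k * (n * k) := by group
      _ = n * n * (k * k) := h6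
      _ = n * (n * k) * k := by group
  exact (mul_left_cancel (mul_right_cancel h7)).symm

/-- **no hom `l` with `l n = -1 → n² = 1`** -/
theorem no_hom_two (C : H13.Co3.CB P N0 z s ψ) (l : ↥N0 →* ℤˣ) (hl : l ≠ 1)
    (h : ∀ n : ↥N0, l n = -1 → (n : G) * n = 1) : False := by
  classical
  have hf := finite_N0 C
  obtain ⟨m, hm⟩ : ∃ m, l m = -1 := by
    by_contra hc
    push Not at hc
    apply hl
    ext n
    rcases Int.units_eq_one_or (l n) with h1 | h1
    · rw [h1]; rfl
    · exact absurd h1 (hc n)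
  have h1 : 2 * Nat.card {n : ↥N0 // l n = -1} = 64 := by
    rw [← C.card]
    refine half _ (Equiv.mulRight m) fun n => ?_
    have e1 : l ((Equiv.mulRight m) n) = l n * l m := map_mul l n m
    rw [e1, hm]
    rcases Int.units_eq_one_or (l n) with h1 | h1
    · rw [h1]; decide
    · rw [h1]; decide
  have h3 := card_sq_one C
  let f : {n : ↥N0 // l n = -1} → {n : ↥N0 // (n : G) * n = 1} := fun n => ⟨n.1, h n.1 n.2⟩
  have hfi : Function.Injective f := fun a b hab => by
    have := congrArg (fun x => x.1) hab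
    exact Subtype.ext this
  have hfb : Function.Bijective f := (Nat.bijective_iff_injective_and_card f).2 ⟨hfi, by omega⟩
  obtain ⟨a, ha⟩ := hfb.2 ⟨1, by simp⟩
  have h4 : a.1 = 1 := congrArg (fun x => x.1) ha
  have h5 := a.2
  rw [h4, map_one] at h5
  exact absurd h5 (by decide)

/-- a noncentral element is conjugate to its product with `z` -/
theorem conj_mul_z (C : H13.Co3.CB P N0 z s ψ) {n : G} (hn : n ∈ N0) (h : n ∉ zpowers s) :
    ∃ m ∈ N0, m * n * m⁻¹ = z * n := by
  by_contra hc
  push Not at hc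
  apply h
  refine C.cen n hn fun m hm => ?_
  rcases C.comm m hm n hn with h1 | h1
  · exact h1.symm
  · exfalso
    apply hc m hm
    rw [h1]; group

end Cfsg.Agent.H731.C3
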